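import Mathlib
import Cfsg.Agent.Lib.Helper32.Scn.Tools

/-!
# S1904 (helper13): tools for the order-counting packages A1c and A2c

`X` a group whose commutators and squares lie in `omZ X` (class 2, `X / omZ X` elementary).
-/

set_option autoImplicit false
set_option linter.style.haveILetI false

universe u

namespace Cfsg.Agent.Lib.Helper13.Scn

open Cfsg.Agent.Lib.Helper32.Scn
open scoped Pointwise

variable {X : Type u} [Group X]

/-- The commutator map `g ↦ [g, x]` as a homomorphism (commutators are central). -/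
def cHom (hc : ∀ x y : X, x * y * x⁻¹ * y⁻¹ ∈ omZ X) (x : X) : X →* X where
  toFun g := g * x * g⁻¹ * x⁻¹
  map_one' := by group
  map_mul' g h := by
    have h1 := omZ_comm (hc h x) g
    calc g * h * x * (g * h)⁻¹ * x⁻¹ = (g * (h * x * h⁻¹ * x⁻¹)) * x * g⁻¹ * x⁻¹ := by group
      _ = ((h * x * h⁻¹ * x⁻¹) * g) * x * g⁻¹ * x⁻¹ := by rw [h1]
      _ = (h * x * h⁻¹ * x⁻¹) * (g * x * g⁻¹ * x⁻¹) := by group
      _ = (g * x * g⁻¹ * x⁻¹) * (h * x * h⁻¹ * x⁻¹) := (omZ_comm (hc h x) _).symm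

variable (hc : ∀ x y : X, x * y * x⁻¹ * y⁻¹ ∈ omZ X)

theorem cHom_apply (x g : X) : cHom hc x g = g * x * g⁻¹ * x⁻¹ := rfl

theorem cHom_mem (x g : X) : cHom hc x g ∈ omZ X := hc g x

/-- The centralizer of `x`, as the kernel of `cHom`. -/
def Cx (x : X) : Subgroup X := (cHom hc x).ker

theorem mem_Cx {x g : X} : g ∈ Cx hc x ↔ g * x = x * g := by
  rw [Cx, MonoidHom.mem_ker, cHom_apply]
  constructor
  · intro h
    have e : g * x = (g * x * g⁻¹ * x⁻¹) * (x * g) := by group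
    rw [e, h, one_mul]
  · intro h
    rw [h]
    group

theorem omZ_le_Cx (x : X) : omZ X ≤ Cx hc x := fun _ hv => (mem_Cx hc).2 (omZ_comm hv x).symm

theorem self_mem_Cx (x : X) : x ∈ Cx hc x := (mem_Cx hc).2 rfl

theorem Cx_index_dvd [Finite X] (x : X) : (Cx hc x).index ∣ Nat.card (omZ X) := by
  rw [Cx, Subgroup.index_ker]
  apply Subgroup.card_dvd_of_le
  rintro _ ⟨g, rfl⟩
  exact cHom_mem hc x g

theorem Cx_ne_top {x : X} (hx : x ∉ Subgroup.center X) : Cx hc x ≠ ⊤ := by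
  intro h
  apply hx
  rw [Subgroup.mem_center_iff]
  intro g
  have hg : g ∈ Cx hc x := by rw [h]; exact Subgroup.mem_top g
  exact (mem_Cx hc).1 hg

theorem cHom_mul_right (g x y : X) : cHom hc (x * y) g = cHom hc x g * cHom hc y g := by
  simp only [cHom_apply]
  have h1 := omZ_comm (hc g y) (g * x * g⁻¹)
  calc g * (x * y) * g⁻¹ * (x * y)⁻¹ = (g * x * g⁻¹) * (g * y * g⁻¹ * y⁻¹) * x⁻¹ := by group
    _ = (g * y * g⁻¹ * y⁻¹) * (g * x * g⁻¹) * x⁻¹ := by rw [h1]
    _ = (g * y * g⁻¹ * y⁻¹) * (g * x * g⁻¹ * x⁻¹) := by group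
    _ = (g * x * g⁻¹ * x⁻¹) * (g * y * g⁻¹ * y⁻¹) := (omZ_comm (hc g y) _).symm

theorem cHom_symm (g x : X) : cHom hc x g = cHom hc g x := by
  have h1 : cHom hc x g = (cHom hc g x)⁻¹ := by
    simp only [cHom_apply]
    group
  rw [h1, omZ_inv (cHom_mem hc g x)]

theorem cHom_central {v : X} (hv : v ∈ omZ X) (g : X) : cHom hc v g = 1 := by
  rw [cHom_apply, omZ_comm hv g]
  group

theorem cHom_self (x : X) : cHom hc x x = 1 := by
  rw [cHom_apply]
  group

theorem cHom_sq (x g : X) : cHom hc x g * cHom hc x g = 1 := omZ_sq (cHom_mem hc x g)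

theorem cHom_eq_one_iff {x g : X} : cHom hc x g = 1 ↔ g * x = x * g := by
  rw [← mem_Cx hc, Cx, MonoidHom.mem_ker]

/-- A subgroup containing `omZ X` is normal. -/
theorem normal_of_omZ_le (hc : ∀ x y : X, x * y * x⁻¹ * y⁻¹ ∈ omZ X) {H : Subgroup X} (hH : omZ X ≤ H) : H.Normal := by
  constructor
  intro n hn g
  have e : g * n * g⁻¹ = (g * n * g⁻¹ * n⁻¹) * n := by group
  rw [e]
  exact H.mul_mem (hH (hc g n)) hn

theorem mem_sup_zpowers (hc : ∀ x y : X, x * y * x⁻¹ * y⁻¹ ∈ omZ X) (hs : ∀ x : X, x * x ∈ omZ X) {H : Subgroup X} (hH : omZ X ≤ H) (x : X)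
    {g : X} (hg : g ∈ H ⊔ Subgroup.zpowers x) : g ∈ H ∨ x⁻¹ * g ∈ H := by
  haveI := normal_of_omZ_le hc hH
  have hx : x * x ∈ H := hH (hs x)
  have h1 : g ∈ (H : Set X) * (Subgroup.zpowers x : Set X) := by
    rw [← Subgroup.normal_mul]
    exact hg
  obtain ⟨h, hh, y, hy, rfl⟩ := Set.mem_mul.1 h1
  obtain ⟨n, rfl⟩ := Subgroup.mem_zpowers_iff.1 hy
  obtain ⟨m, rfl | rfl⟩ := Int.even_or_odd' n
  · left
    have e : x ^ (2 * m) = (x * x) ^ m := by rw [zpow_mul, zpow_two]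
    rw [e]
    exact H.mul_mem hh (H.zpow_mem hx m)
  · right
    have e : x⁻¹ * (h * x ^ (2 * m + 1)) = x⁻¹ * (h * (x * x) ^ m) * x⁻¹⁻¹ := by
      rw [zpow_add, zpow_one, zpow_mul, zpow_two, inv_inv]
      group
    rw [e]
    exact (inferInstance : H.Normal).conj_mem _ (H.mul_mem hh (H.zpow_mem hx m)) x⁻¹

theorem card_sup_zpowers_le [Finite X] (hc : ∀ x y : X, x * y * x⁻¹ * y⁻¹ ∈ omZ X) (hs : ∀ x : X, x * x ∈ omZ X) {H : Subgroup X}
    (hH : omZ X ≤ H) (x : X) : Nat.card ↥(H ⊔ Subgroup.zpowers x) ≤ 2 * Nat.card H := by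
  have hsub : ((H ⊔ Subgroup.zpowers x : Subgroup X) : Set X) ⊆
      (H : Set X) ∪ (fun h => x * h) '' (H : Set X) := by
    intro g hg
    rcases mem_sup_zpowers hc hs hH x hg with h | h
    · exact Or.inl h
    · exact Or.inr ⟨x⁻¹ * g, h, by group⟩
  have h1 := Set.ncard_le_ncard hsub (Set.toFinite _)
  have h2 := Set.ncard_union_le (H : Set X) ((fun h => x * h) '' (H : Set X))
  have h3 := Set.ncard_image_le (f := fun h => x * h) (s := (H : Set X)) (Set.toFinite _)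
  have e1 : Nat.card ↥(H ⊔ Subgroup.zpowers x) =
      ((H ⊔ Subgroup.zpowers x : Subgroup X) : Set X).ncard := Nat.card_coe_set_eq _
  have e2 : Nat.card ↥H = (H : Set X).ncard := Nat.card_coe_set_eq _
  rw [e1, e2]
  omega

theorem two_mul_card_le_of_lt [Finite X] {H K : Subgroup X} (hle : H ≤ K)
    (hne : ∃ g ∈ K, g ∉ H) : 2 * Nat.card H ≤ Nat.card K := by
  obtain ⟨g, hgK, hgH⟩ := hne
  obtain ⟨m, hm⟩ := Subgroup.card_dvd_of_le hle
  have hKpos : 0 < Nat.card K := Nat.card_pos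
  have hm1 : m ≠ 1 := by
    rintro rfl
    have hHK : H = K := Subgroup.eq_of_le_of_card_ge hle (by rw [hm, mul_one])
    exact hgH (hHK ▸ hgK)
  have hm0 : m ≠ 0 := by
    rintro rfl
    rw [mul_zero] at hm
    omega
  have hm2 : 2 ≤ m := by omega
  rw [hm, mul_comm]
  exact Nat.mul_le_mul_left _ hm2

theorem card_sup_zpowers_ge [Finite X] {H : Subgroup X} {x : X} (hx : x ∉ H) :
    2 * Nat.card H ≤ Nat.card ↥(H ⊔ Subgroup.zpowers x) :=
  two_mul_card_le_of_lt le_sup_left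
    ⟨x, Subgroup.mem_sup_right (Subgroup.mem_zpowers x), hx⟩

theorem exists_mem_not_mem [Finite X] {K H : Subgroup X} (h : Nat.card H < Nat.card K) :
    ∃ g ∈ K, g ∉ H := by
  by_contra hcon
  have hKH : K ≤ H := by
    intro g hg
    by_contra hgH
    exact hcon ⟨g, hg, hgH⟩
  exact absurd (Subgroup.card_le_of_le hKH) (not_le.2 h)

/-- `Z(K)` as a subgroup of `X`. -/
def zK (K : Subgroup X) : Subgroup X := Subgroup.centralizer (K : Set X) ⊓ K

theorem zK_comm (K : Subgroup X) {a b : X} (ha : a ∈ zK K) (hb : b ∈ zK K) : a * b = b * a :=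
  (Subgroup.mem_centralizer_iff.1 ha.1 b hb.2).symm

theorem mem_zK {K : Subgroup X} {g : X} (hg : g ∈ K) (h : ∀ k ∈ K, k * g = g * k) : g ∈ zK K :=
  ⟨Subgroup.mem_centralizer_iff.2 h, hg⟩

/-- Elements of order at most 2 in an abelian subgroup. -/
def om1 (U : Subgroup X) (hU : ∀ a ∈ U, ∀ b ∈ U, a * b = b * a) : Subgroup X where
  carrier := {u | u ∈ U ∧ u * u = 1}
  one_mem' := ⟨U.one_mem, by simp⟩
  mul_mem' := by
    rintro a b ⟨ha, ha2⟩ ⟨hb, hb2⟩
    refine ⟨U.mul_mem ha hb, ?_⟩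
    calc a * b * (a * b) = a * (b * a) * b := by group
      _ = a * (a * b) * b := by rw [hU b hb a ha]
      _ = (a * a) * (b * b) := by group
      _ = 1 := by rw [ha2, hb2, one_mul]
  inv_mem' := by
    rintro a ⟨ha, ha2⟩
    refine ⟨U.inv_mem ha, ?_⟩
    calc a⁻¹ * a⁻¹ = (a * a)⁻¹ := by group
      _ = 1 := by rw [ha2, inv_one]

theorem mem_om1 {U : Subgroup X} {hU : ∀ a ∈ U, ∀ b ∈ U, a * b = b * a} {u : X} :
    u ∈ om1 U hU ↔ u ∈ U ∧ u * u = 1 := Iff.rfl

/-- `|U| ≤ |Ω₁(U)| · |omZ X|` for an abelian subgroup `U`. -/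
theorem card_le_om1 [Finite X] (hs : ∀ x : X, x * x ∈ omZ X) (U : Subgroup X)
    (hU : ∀ a ∈ U, ∀ b ∈ U, a * b = b * a) :
    Nat.card U ≤ Nat.card (om1 U hU) * Nat.card (omZ X) := by
  let φ : ↥U →* ↥(omZ X) :=
    { toFun := fun u => ⟨(u : X) * u, hs u⟩
      map_one' := by
        apply Subtype.ext
        simp
      map_mul' := by
        intro a b
        apply Subtype.ext
        show ((a : X) * b) * ((a : X) * b) = ((a : X) * a) * ((b : X) * b)
        calc ((a : X) * b) * ((a : X) * b) = (a : X) * ((b : X) * a) * b := by group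
          _ = (a : X) * ((a : X) * b) * b := by rw [hU b b.2 a a.2]
          _ = ((a : X) * a) * ((b : X) * b) := by group }
  have h1 := Subgroup.card_mul_index φ.ker
  rw [Subgroup.index_ker] at h1
  have h2 : Nat.card φ.range ≤ Nat.card (omZ X) := Subgroup.card_le_card_group _
  have h3 : Nat.card φ.ker ≤ Nat.card (om1 U hU) := by
    let ι : φ.ker → om1 U hU := fun k => ⟨((k : ↥U) : X), ⟨(k : ↥U).2, by
      have hk := k.2
      rw [MonoidHom.mem_ker] at hk
      exact congrArg Subtype.val hk⟩⟩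
    apply Nat.card_le_card_of_injective ι
    intro a b hab
    have h4 : (ι a).1 = (ι b).1 := congrArg Subtype.val hab
    exact Subtype.ext (Subtype.ext h4)
  calc Nat.card U = Nat.card φ.ker * Nat.card φ.range := h1.symm
    _ ≤ Nat.card (om1 U hU) * Nat.card (omZ X) := Nat.mul_le_mul h3 h2

/-- Two non-trivial elements of a group of order 2 are equal. -/
theorem eq_of_card_two {H : Subgroup X} (h2 : Nat.card H = 2) {a b : X} (ha : a ∈ H) (hb : b ∈ H)
    (ha1 : a ≠ 1) (hb1 : b ≠ 1) : a = b := by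
  obtain ⟨x, y, hxy, huniv⟩ := Nat.card_eq_two_iff.1 h2
  have key : ∀ w : H, w = x ∨ w = y := by
    intro w
    have : w ∈ ({x, y} : Set H) := by rw [huniv]; exact Set.mem_univ w
    simpa using this
  have h1 := key ⟨1, H.one_mem⟩
  have h3 := key ⟨a, ha⟩
  have h4 := key ⟨b, hb⟩
  have ha' : (⟨a, ha⟩ : H) ≠ ⟨1, H.one_mem⟩ := fun h => ha1 (congrArg Subtype.val h)
  have hb' : (⟨b, hb⟩ : H) ≠ ⟨1, H.one_mem⟩ := fun h => hb1 (congrArg Subtype.val h)
  have hfin : (⟨a, ha⟩ : H) = ⟨b, hb⟩ := by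
    rcases h1 with h1 | h1 <;> rcases h3 with h3 | h3 <;> rcases h4 with h4 | h4
    · exact absurd (h3.trans h1.symm) ha'
    · exact absurd (h3.trans h1.symm) ha'
    · exact absurd (h4.trans h1.symm) hb'
    · exact h3.trans h4.symm
    · exact h3.trans h4.symm
    · exact absurd (h4.trans h1.symm) hb'
    · exact absurd (h3.trans h1.symm) ha'
    · exact absurd (h3.trans h1.symm) ha'
  exact congrArg Subtype.val hfin

end Cfsg.Agent.Lib.Helper13.Scn
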