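import Mathlib
import Cfsg.Agent.Lib.Helper13.Scn.Tools13

/-!
# S1904, package [A1c] (helper13): case (α), `|omZ X| = 2` gives `|X| ∈ {8, 32}`
-/

set_option autoImplicit false
set_option linter.style.haveILetI false

universe u

namespace Cfsg.Agent.Lib.Helper13.Scn

open Cfsg.Agent.Lib.Helper32.Scn

theorem lemA1card : LemA1card.{u} := by
  intro X _ _ A h hV
  haveI : Fact (Nat.Prime 2) := ⟨Nat.prime_two⟩
  have hc := h.comm
  have hs := h.sq
  obtain ⟨k, hk⟩ := IsPGroup.iff_card.1 h.hyp.two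
  obtain ⟨a, b, hab⟩ := h.hyp.na
  have notV_of : ∀ x : X, x ∉ omZ X → x ∉ Subgroup.center X := fun x hx hxc => hx (h.cen x hxc)
  have haV : a ∉ omZ X := fun ha => hab (omZ_comm ha b).symm
  have hidx : ∀ x : X, x ∉ omZ X → (Cx hc x).index = 2 := by
    intro x hx
    have h1 := Cx_index_dvd hc x
    rw [hV] at h1
    have h2 : (Cx hc x).index ≠ 1 := fun h1' =>
      Cx_ne_top hc (notV_of x hx) (Subgroup.index_eq_one.1 h1')
    rcases (Nat.dvd_prime Nat.prime_two).1 h1 with h3 | h3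
    · exact absurd h3 h2
    · exact h3
  have hcard : ∀ x : X, x ∉ omZ X → Nat.card (Cx hc x) * 2 = 2 ^ k := by
    intro x hx
    have h1 := Subgroup.card_mul_index (Cx hc x)
    rw [hidx x hx, hk] at h1
    exact h1
  have hH1 : ∀ x : X, x ∉ omZ X → 4 ≤ Nat.card ↥(omZ X ⊔ Subgroup.zpowers x) ∧
      Nat.card ↥(omZ X ⊔ Subgroup.zpowers x) ≤ 4 := by
    intro x hx
    have h1 := card_sup_zpowers_ge (H := omZ X) hx
    have h2 := card_sup_zpowers_le hc hs (le_refl (omZ X)) x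
    rw [hV] at h1 h2
    exact ⟨h1, h2⟩
  have hH1le : ∀ x : X, omZ X ⊔ Subgroup.zpowers x ≤ Cx hc x := fun x =>
    sup_le (omZ_le_Cx hc x) (Subgroup.zpowers_le.2 (self_mem_Cx hc x))
  have hk3 : 3 ≤ k := by
    have h1 := (hH1 a haV).1
    have h2 := Subgroup.card_le_of_le (hH1le a)
    have h3 := hcard a haV
    by_contra hcon
    have h4 : k ≤ 2 := by omega
    have h5 : 2 ^ k ≤ 2 ^ 2 := Nat.pow_le_pow_right (by norm_num) h4
    omega
  by_cases hk3' : k = 3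
  · left
    rw [hk, hk3']
    norm_num
  by_cases hk5 : k = 5
  · right
    rw [hk, hk5]
    norm_num
  exfalso
  by_cases hk4 : k = 4
  · -- `|X| = 16`
    subst hk4
    have hC : Nat.card (Cx hc a) = 8 := by
      have h1 := hcard a haV
      norm_num at h1
      omega
    obtain ⟨y, hyC, hyH⟩ := exists_mem_not_mem (K := Cx hc a)
      (H := omZ X ⊔ Subgroup.zpowers a) (by have h1 := (hH1 a haV).2; omega)
    have hyV : y ∉ omZ X := fun hy => hyH (Subgroup.mem_sup_left hy)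
    have hxy : y * a = a * y := (mem_Cx hc).1 hyC
    have hH2 : 8 ≤ Nat.card ↥((omZ X ⊔ Subgroup.zpowers a) ⊔ Subgroup.zpowers y) := by
      have h1 := card_sup_zpowers_ge (H := omZ X ⊔ Subgroup.zpowers a) hyH
      have h2 := (hH1 a haV).1
      omega
    have key : ∀ u : X, u ∉ omZ X → a * u = u * a → y * u = u * y → Cx hc u = Cx hc a := by
      intro u hu hxu hyu
      have hle : (omZ X ⊔ Subgroup.zpowers a) ⊔ Subgroup.zpowers y ≤ Cx hc a ⊓ Cx hc u := by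
        refine sup_le (sup_le (le_inf (omZ_le_Cx hc a) (omZ_le_Cx hc u)) ?_) ?_
        · exact Subgroup.zpowers_le.2 ⟨self_mem_Cx hc a, (mem_Cx hc).2 hxu⟩
        · exact Subgroup.zpowers_le.2 ⟨hyC, (mem_Cx hc).2 hyu⟩
      have hcu : Nat.card (Cx hc u) = 8 := by
        have h1 := hcard u hu
        norm_num at h1
        omega
      have h8 : 8 ≤ Nat.card ↥(Cx hc a ⊓ Cx hc u) := le_trans hH2 (Subgroup.card_le_of_le hle)
      have e1 : Cx hc a ⊓ Cx hc u = Cx hc a :=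
        Subgroup.eq_of_le_of_card_ge inf_le_left (by omega)
      have e2 : Cx hc a ⊓ Cx hc u = Cx hc u :=
        Subgroup.eq_of_le_of_card_ge inf_le_right (by omega)
      exact e2.symm.trans e1
    have hCy := key y hyV hxy.symm rfl
    have hxyV : a * y ∉ omZ X := by
      intro hv
      apply hyH
      have e : y = a⁻¹ * (a * y) := by group
      rw [e]
      exact Subgroup.mul_mem _
        (Subgroup.mem_sup_right (Subgroup.inv_mem _ (Subgroup.mem_zpowers a)))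
        (Subgroup.mem_sup_left hv)
    have hCxy := key (a * y) hxyV (by rw [mul_assoc, hxy]) (by rw [← mul_assoc, hxy])
    have hne : Cx hc a ≠ ⊤ := Cx_ne_top hc (notV_of a haV)
    obtain ⟨w, hw⟩ : ∃ w : X, w ∉ Cx hc a := by
      by_contra hcon
      exact hne ((Subgroup.eq_top_iff' _).2 (fun w => by
        by_contra hw
        exact hcon ⟨w, hw⟩))
    have hw1 : cHom hc a w ≠ 1 := fun h1 => hw (by rw [Cx, MonoidHom.mem_ker]; exact h1)
    have hw2 : cHom hc y w ≠ 1 := fun h1 =>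
      hw (by rw [← hCy, Cx, MonoidHom.mem_ker]; exact h1)
    have hw3 : cHom hc (a * y) w ≠ 1 := fun h1 =>
      hw (by rw [← hCxy, Cx, MonoidHom.mem_ker]; exact h1)
    have heq := eq_of_card_two hV (cHom_mem hc a w) (cHom_mem hc y w) hw1 hw2
    apply hw3
    rw [cHom_mul_right, heq]
    exact cHom_sq hc y w
  · -- `|X| ≥ 64`
    have hk6 : 6 ≤ k := by omega
    have h64 : 64 ≤ 2 ^ k := by
      calc 64 = 2 ^ 6 := by norm_num
        _ ≤ 2 ^ k := Nat.pow_le_pow_right (by norm_num) hk6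
    have hC1 : 32 ≤ Nat.card (Cx hc a) := by
      have h1 := hcard a haV
      omega
    obtain ⟨x₂, hx₂C, hx₂H⟩ := exists_mem_not_mem (K := Cx hc a)
      (H := omZ X ⊔ Subgroup.zpowers a) (by have h1 := (hH1 a haV).2; omega)
    have hx₂V : x₂ ∉ omZ X := fun hy => hx₂H (Subgroup.mem_sup_left hy)
    have h12 : x₂ * a = a * x₂ := (mem_Cx hc).1 hx₂C
    have hH₂ge : 8 ≤ Nat.card ↥((omZ X ⊔ Subgroup.zpowers a) ⊔ Subgroup.zpowers x₂) := by
      have h1 := card_sup_zpowers_ge (H := omZ X ⊔ Subgroup.zpowers a) hx₂H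
      have h2 := (hH1 a haV).1
      omega
    have hH₂le : Nat.card ↥((omZ X ⊔ Subgroup.zpowers a) ⊔ Subgroup.zpowers x₂) ≤ 8 := by
      have h1 := card_sup_zpowers_le hc hs (H := omZ X ⊔ Subgroup.zpowers a) le_sup_left x₂
      have h2 := (hH1 a haV).2
      omega
    have hC2 : 16 ≤ Nat.card ↥(Cx hc a ⊓ Cx hc x₂) := by
      have h1 := Subgroup.index_inf_le (H := Cx hc a) (K := Cx hc x₂)
      rw [hidx a haV, hidx x₂ hx₂V] at h1
      have h2 := Subgroup.card_mul_index (Cx hc a ⊓ Cx hc x₂)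
      rw [hk] at h2
      by_contra hcon
      have h3 : Nat.card ↥(Cx hc a ⊓ Cx hc x₂) ≤ 15 := by omega
      have h4 : Nat.card ↥(Cx hc a ⊓ Cx hc x₂) * (Cx hc a ⊓ Cx hc x₂).index ≤ 15 * 4 :=
        Nat.mul_le_mul h3 h1
      omega
    obtain ⟨x₃, hx₃C, hx₃H⟩ := exists_mem_not_mem (K := Cx hc a ⊓ Cx hc x₂)
      (H := (omZ X ⊔ Subgroup.zpowers a) ⊔ Subgroup.zpowers x₂) (by omega)
    have h13 : x₃ * a = a * x₃ := (mem_Cx hc).1 hx₃C.1
    have h23 : x₃ * x₂ = x₂ * x₃ := (mem_Cx hc).1 hx₃C.2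
    have hmemK : ∀ g, g ∈ (Cx hc a ⊓ Cx hc x₂) ⊓ Cx hc x₃ ↔
        (g * a = a * g ∧ g * x₂ = x₂ * g) ∧ g * x₃ = x₃ * g := by
      intro g
      simp only [Subgroup.mem_inf, mem_Cx]
    have hVU : omZ X ≤ zK ((Cx hc a ⊓ Cx hc x₂) ⊓ Cx hc x₃) := by
      intro v hv
      refine mem_zK ?_ (fun k _ => omZ_comm hv k)
      exact (hmemK v).2 ⟨⟨(omZ_comm hv a).symm, (omZ_comm hv x₂).symm⟩, (omZ_comm hv x₃).symm⟩
    have hx1U : a ∈ zK ((Cx hc a ⊓ Cx hc x₂) ⊓ Cx hc x₃) :=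
      mem_zK ((hmemK a).2 ⟨⟨rfl, h12.symm⟩, h13.symm⟩) (fun k hk => ((hmemK k).1 hk).1.1)
    have hx2U : x₂ ∈ zK ((Cx hc a ⊓ Cx hc x₂) ⊓ Cx hc x₃) :=
      mem_zK ((hmemK x₂).2 ⟨⟨h12, rfl⟩, h23.symm⟩) (fun k hk => ((hmemK k).1 hk).1.2)
    have hx3U : x₃ ∈ zK ((Cx hc a ⊓ Cx hc x₂) ⊓ Cx hc x₃) :=
      mem_zK ((hmemK x₃).2 ⟨⟨h13, h23⟩, rfl⟩) (fun k hk => ((hmemK k).1 hk).2)
    have hH₂U : (omZ X ⊔ Subgroup.zpowers a) ⊔ Subgroup.zpowers x₂ ≤
        zK ((Cx hc a ⊓ Cx hc x₂) ⊓ Cx hc x₃) :=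
      sup_le (sup_le hVU (Subgroup.zpowers_le.2 hx1U)) (Subgroup.zpowers_le.2 hx2U)
    have hU16 : 16 ≤ Nat.card (zK ((Cx hc a ⊓ Cx hc x₂) ⊓ Cx hc x₃)) := by
      have h1 := two_mul_card_le_of_lt hH₂U ⟨x₃, hx3U, hx₃H⟩
      omega
    have hUab : ∀ u ∈ zK ((Cx hc a ⊓ Cx hc x₂) ⊓ Cx hc x₃),
        ∀ u' ∈ zK ((Cx hc a ⊓ Cx hc x₂) ⊓ Cx hc x₃), u * u' = u' * u :=
      fun u hu u' hu' => zK_comm _ hu hu'
    have hE8 : 8 ≤ Nat.card (om1 (zK ((Cx hc a ⊓ Cx hc x₂) ⊓ Cx hc x₃)) hUab) := by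
      have h1 := card_le_om1 hs (zK ((Cx hc a ⊓ Cx hc x₂) ⊓ Cx hc x₃)) hUab
      rw [hV] at h1
      omega
    have hEn : (om1 (zK ((Cx hc a ⊓ Cx hc x₂) ⊓ Cx hc x₃)) hUab).Normal := by
      constructor
      intro e he g
      obtain ⟨heU, he2⟩ := he
      refine ⟨?_, ?_⟩
      · have e1 : g * e * g⁻¹ = (g * e * g⁻¹ * e⁻¹) * e := by group
        rw [e1]
        exact Subgroup.mul_mem _ (hVU (hc g e)) heU
      · have e1 : g * e * g⁻¹ * (g * e * g⁻¹) = g * (e * e) * g⁻¹ := by group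
        rw [e1, he2]
        group
    have hfin := h.hyp.noE8 _ hEn (fun e he => he.2)
    omega

end Cfsg.Agent.Lib.Helper13.Scn
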