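import Mathlib
import Cfsg.Agent.Lib.Helper13.Scn.Tools13

/-!
# S1904, package [A2c] (helper13): case (α), `|omZ X| = 4` gives `|X| = 64`
-/

set_option autoImplicit false
set_option linter.style.haveILetI false

universe u

namespace Cfsg.Agent.Lib.Helper13.Scn

open Cfsg.Agent.Lib.Helper32.Scn

variable {X : Type u} [Group X]

/-- The four elements of a group of order 4 generated by two involutions. -/
theorem four_cases {H : Subgroup X} (h4 : Nat.card H = 4) {v₁ v₂ : X} (h1 : v₁ ∈ H)
    (h2 : v₂ ∈ H) (hv1 : v₁ ≠ 1) (hv2 : v₂ ≠ 1) (h12 : v₂ ≠ v₁) (hsq : v₁ * v₁ = 1) :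
    ∀ c ∈ H, c = 1 ∨ c = v₁ ∨ c = v₂ ∨ c = v₁ * v₂ := by
  classical
  have hfin : Finite H := Nat.finite_of_card_ne_zero (by rw [h4]; norm_num)
  have := Fintype.ofFinite H
  have h3 : v₁ * v₂ ≠ 1 := by
    intro h
    have e : v₂ = v₁⁻¹ := eq_inv_of_mul_eq_one_right h
    rw [inv_eq_of_mul_eq_one_left hsq] at e
    exact h12 e
  have h5 : v₁ * v₂ ≠ v₁ := by
    intro h
    exact hv2 (mul_left_cancel (h.trans (mul_one v₁).symm))
  have h6 : v₁ * v₂ ≠ v₂ := by
    intro h
    exact hv1 (mul_right_cancel (h.trans (one_mul v₂).symm))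
  let S : Finset H := {⟨1, H.one_mem⟩, ⟨v₁, h1⟩, ⟨v₂, h2⟩, ⟨v₁ * v₂, H.mul_mem h1 h2⟩}
  have hS : S.card = 4 := by
    rw [Finset.card_insert_of_notMem, Finset.card_insert_of_notMem, Finset.card_insert_of_notMem,
      Finset.card_singleton]
    · simp only [Finset.mem_singleton, Subtype.mk.injEq]
      exact fun hc => h6 hc.symm
    · simp only [Finset.mem_insert, Finset.mem_singleton, Subtype.mk.injEq, not_or]
      exact ⟨fun hc => h12 hc.symm, fun hc => h5 hc.symm⟩
    · simp only [Finset.mem_insert, Finset.mem_singleton, Subtype.mk.injEq, not_or]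
      exact ⟨fun hc => hv1 hc.symm, fun hc => hv2 hc.symm, fun hc => h3 hc.symm⟩
  have hcard : Fintype.card H = 4 := by rw [← Nat.card_eq_fintype_card, h4]
  have hSu : S = Finset.univ := Finset.eq_univ_of_card S (by rw [hS, hcard])
  intro c hcH
  have hcS : (⟨c, hcH⟩ : H) ∈ S := by rw [hSu]; exact Finset.mem_univ _
  simp only [S, Finset.mem_insert, Finset.mem_singleton, Subtype.mk.injEq] at hcS
  exact hcS

theorem cHom_of_mem_omZ (hc : ∀ x y : X, x * y * x⁻¹ * y⁻¹ ∈ omZ X) {v : X} (hv : v ∈ omZ X)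
    (x : X) : cHom hc x v = 1 :=
  (cHom_eq_one_iff hc).2 (omZ_comm hv x).symm

theorem lemA2card (hB : LemBound.{u}) (hI : LemInv8.{u}) : LemA2card.{u} := by
  intro X _ _ A h hV
  haveI : Fact (Nat.Prime 2) := ⟨Nat.prime_two⟩
  have hc := h.comm
  have hs := h.sq
  obtain ⟨k, hk⟩ := IsPGroup.iff_card.1 h.hyp.two
  obtain ⟨a, b, hab⟩ := h.hyp.na
  have notV_of : ∀ x : X, x ∉ omZ X → x ∉ Subgroup.center X := fun x hx hxc => hx (h.cen x hxc)
  have haV : a ∉ omZ X := fun ha => hab (omZ_comm ha b).symm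
  have hinv : ∀ t : X, t * t = 1 → t ∈ omZ X := fun t ht =>
    hI h.hyp.noE8 hV t ht (fun g => hc g t)
  have h64 : Nat.card X ≤ 64 := by
    have h1 := hB (⊤ : Subgroup X) hV le_top (fun w _ => hs w) (fun w _ w' _ => hc w w')
      (fun w _ hw => hinv w hw)
    rwa [Subgroup.card_top] at h1
  have hk6 : k ≤ 6 := by
    by_contra hcon
    have h1 : 7 ≤ k := by omega
    have h2 : 2 ^ 7 ≤ 2 ^ k := Nat.pow_le_pow_right (by norm_num) h1
    rw [hk] at h64
    omega
  have hH1 : ∀ x : X, x ∉ omZ X → 8 ≤ Nat.card ↥(omZ X ⊔ Subgroup.zpowers x) ∧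
      Nat.card ↥(omZ X ⊔ Subgroup.zpowers x) ≤ 8 := by
    intro x hx
    have h1 := card_sup_zpowers_ge (H := omZ X) hx
    have h2 := card_sup_zpowers_le hc hs (le_refl (omZ X)) x
    rw [hV] at h1 h2
    exact ⟨h1, h2⟩
  have hH1le : ∀ x : X, omZ X ⊔ Subgroup.zpowers x ≤ Cx hc x := fun x =>
    sup_le (omZ_le_Cx hc x) (Subgroup.zpowers_le.2 (self_mem_Cx hc x))
  have hClt : ∀ x : X, x ∉ omZ X → Nat.card (Cx hc x) < 2 ^ k := by
    intro x hx
    by_contra hcon
    have h1 : Cx hc x = ⊤ := Subgroup.eq_of_le_of_card_ge le_top (by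
      rw [Subgroup.card_top, hk]
      omega)
    exact Cx_ne_top hc (notV_of x hx) h1
  have hidx : ∀ x : X, (Cx hc x).index = 1 ∨ (Cx hc x).index = 2 ∨ (Cx hc x).index = 4 := by
    intro x
    have h1 := Cx_index_dvd hc x
    rw [hV] at h1
    have h2 : (Cx hc x).index ∣ 2 ^ 2 := by
      norm_num
      exact h1
    obtain ⟨j, hj, hj2⟩ := (Nat.dvd_prime_pow Nat.prime_two).1 h2
    interval_cases j
    · left; simpa using hj2
    · right; left; simpa using hj2
    · right; right; simpa using hj2
  have hk4 : 4 ≤ k := by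
    have h1 := (hH1 a haV).1
    have h2 := Subgroup.card_le_of_le (hH1le a)
    have h3 := hClt a haV
    by_contra hcon
    have h4 : k ≤ 3 := by omega
    have h5 : 2 ^ k ≤ 2 ^ 3 := Nat.pow_le_pow_right (by norm_num) h4
    omega
  rw [hk]
  by_cases hk6' : k = 6
  · rw [hk6']
    norm_num
  exfalso
  by_cases hk4' : k = 4
  · -- `|X| = 16`
    subst hk4'
    have hk16 : Nat.card X = 16 := by rw [hk]; norm_num
    have hC8 : ∀ x : X, x ∉ omZ X → (Cx hc x).index = 2 ∧ Nat.card (Cx hc x) = 8 := by
      intro x hx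
      have h1 := (hH1 x hx).1
      have h2 := Subgroup.card_le_of_le (hH1le x)
      have h3 := hClt x hx
      have h4 := Subgroup.card_mul_index (Cx hc x)
      rw [hk16] at h4
      rw [show (2 : ℕ) ^ 4 = 16 by norm_num] at h3
      rcases hidx x with h5 | h5 | h5
      · rw [h5] at h4; omega
      · rw [h5] at h4; exact ⟨h5, by omega⟩
      · rw [h5] at h4; omega
    have same_val : ∀ x : X, x ∉ omZ X → ∀ g g' : X, g ∉ Cx hc x → g' ∉ Cx hc x →
        cHom hc x g = cHom hc x g' := by
      intro x hx g g' hg hg'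
      have h1 : g⁻¹ * g' ∈ Cx hc x := by
        rw [Subgroup.mul_mem_iff_of_index_two (hC8 x hx).1, Subgroup.inv_mem_iff]
        exact ⟨fun h => absurd h hg, fun h => absurd h hg'⟩
      rw [Cx, MonoidHom.mem_ker, map_mul, map_inv] at h1
      exact inv_mul_eq_one.1 h1
    have hCa : omZ X ⊔ Subgroup.zpowers a = Cx hc a :=
      Subgroup.eq_of_le_of_card_ge (hH1le a) (by
        have h1 := (hH1 a haV).1
        have h2 := (hC8 a haV).2
        omega)
    have hne : Cx hc a ≠ ⊤ := Cx_ne_top hc (notV_of a haV)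
    obtain ⟨y, hy⟩ : ∃ y : X, y ∉ Cx hc a := by
      by_contra hcon
      exact hne ((Subgroup.eq_top_iff' _).2 (fun w => by
        by_contra hw
        exact hcon ⟨w, hw⟩))
    have claim : ∀ g h' : X, cHom hc h' g = 1 ∨ cHom hc h' g = cHom hc a y := by
      intro g h'
      by_cases hhV : h' ∈ omZ X
      · left
        exact cHom_central hc hhV g
      by_cases hg : g ∈ Cx hc h'
      · left
        exact MonoidHom.mem_ker.1 hg
      right
      by_cases hh : h' ∈ Cx hc a
      · have h1 : h' ∈ omZ X ⊔ Subgroup.zpowers a := by rw [hCa]; exact hh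
        rcases mem_sup_zpowers hc hs (le_refl _) a h1 with h2 | h2
        · exact absurd h2 hhV
        · have e : cHom hc h' g = cHom hc a g := by
            have e1 : cHom hc h' g = cHom hc (a * (a⁻¹ * h')) g := by
              congr 2
              group
            rw [e1, cHom_mul_right, cHom_central hc h2, mul_one]
          have hga : g ∉ Cx hc a := fun hmem => hg (by
            rw [Cx, MonoidHom.mem_ker, e]
            exact MonoidHom.mem_ker.1 hmem)
          rw [e]
          exact same_val a haV g y hga hy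
      · have e1 : cHom hc a h' = cHom hc a y := same_val a haV h' y hh hy
        have hah : a ∉ Cx hc h' := fun hmem => hh ((mem_Cx hc).2 ((mem_Cx hc).1 hmem).symm)
        rw [same_val h' hhV g a hg hah, cHom_symm hc a h', e1]
    have hle : commutator X ≤ Subgroup.zpowers (cHom hc a y) := by
      rw [commutator_def, Subgroup.commutator_le]
      intro g _ h' _
      rw [commutatorElement_def]
      rcases claim g h' with e | e
      · rw [← cHom_apply hc h' g, e]
        exact Subgroup.one_mem _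
      · rw [← cHom_apply hc h' g, e]
        exact Subgroup.mem_zpowers _
    have hVle : omZ X ≤ Subgroup.zpowers (cHom hc a y) := fun v hv => hle (h.der v hv)
    have h1 : Nat.card (omZ X) ≤ Nat.card (Subgroup.zpowers (cHom hc a y)) :=
      Subgroup.card_le_of_le hVle
    rw [hV, Nat.card_zpowers] at h1
    have h2 : orderOf (cHom hc a y) ≤ 2 :=
      orderOf_le_of_pow_eq_one (by norm_num) (by rw [pow_two]; exact cHom_sq hc a y)
    omega
  · -- `|X| = 32`
    have hk5 : k = 5 := by omega
    subst hk5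
    have hk32 : Nat.card X = 32 := by rw [hk]; norm_num
    -- (a) a commuting pair
    have pair : ∃ y' w' : X, y' * w' = w' * y' ∧ y' ∉ omZ X ∧
        w' ∉ omZ X ⊔ Subgroup.zpowers y' := by
      by_cases hCH : ∃ w ∈ Cx hc a, w ∉ omZ X ⊔ Subgroup.zpowers a
      · obtain ⟨w, hwC, hwH⟩ := hCH
        exact ⟨a, w, ((mem_Cx hc).1 hwC).symm, haV, hwH⟩
      · have hCle : Cx hc a ≤ omZ X ⊔ Subgroup.zpowers a := by
          intro g hg
          by_contra hgH
          exact hCH ⟨g, hg, hgH⟩
        have hC8 : Nat.card (Cx hc a) = 8 := by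
          have h1 := (hH1 a haV).1
          have h2 := (hH1 a haV).2
          have h3 := Subgroup.card_le_of_le (hH1le a)
          have h4 := Subgroup.card_le_of_le hCle
          omega
        have hrange : (cHom hc a).range = omZ X := by
          apply Subgroup.eq_of_le_of_card_ge
          · rintro _ ⟨g, rfl⟩
            exact cHom_mem hc a g
          · have h1 := Subgroup.card_mul_index (Cx hc a)
            rw [Cx, Subgroup.index_ker] at h1
            rw [hk32] at h1
            have h2 : Nat.card ↥(cHom hc a).ker = 8 := hC8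
            rw [h2] at h1
            rw [hV]
            omega
        have hsurj : ∀ v ∈ omZ X, ∃ g : X, cHom hc a g = v := by
          intro v hv
          rw [← hrange] at hv
          exact hv
        obtain ⟨v₁, hv₁V, hv₁⟩ := exists_mem_not_mem (K := omZ X) (H := (⊥ : Subgroup X))
          (by rw [Subgroup.card_bot, hV]; norm_num)
        have hv₁1 : v₁ ≠ 1 := fun h => hv₁ (by rw [h]; exact Subgroup.one_mem _)
        obtain ⟨v₂, hv₂V, hv₂⟩ := exists_mem_not_mem (K := omZ X) (H := Subgroup.zpowers v₁)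
          (by
            rw [Nat.card_zpowers, hV]
            have h1 : orderOf v₁ ≤ 2 :=
              orderOf_le_of_pow_eq_one (by norm_num) (by rw [pow_two]; exact omZ_sq hv₁V)
            omega)
        have hv₂1 : v₂ ≠ 1 := fun h => hv₂ (by rw [h]; exact Subgroup.one_mem _)
        have hv₂₁ : v₂ ≠ v₁ := fun h => hv₂ (by rw [h]; exact Subgroup.mem_zpowers _)
        obtain ⟨y, hy⟩ := hsurj v₁ hv₁V
        obtain ⟨w, hw⟩ := hsurj v₂ hv₂V
        have hfinal : ∀ y' w' : X, y' * w' = w' * y' → cHom hc a y' = v₁ → cHom hc a w' = v₂ →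
            ∃ y' w' : X, y' * w' = w' * y' ∧ y' ∉ omZ X ∧ w' ∉ omZ X ⊔ Subgroup.zpowers y' := by
          intro y' w' hcomm hy' hw'
          refine ⟨y', w', hcomm, ?_, ?_⟩
          · intro hmem
            rw [cHom_of_mem_omZ hc hmem a] at hy'
            exact hv₁1 hy'.symm
          · intro hmem
            rcases mem_sup_zpowers hc hs (le_refl _) y' hmem with h1 | h1
            · rw [cHom_of_mem_omZ hc h1 a] at hw'
              exact hv₂1 hw'.symm
            · have h2 := cHom_of_mem_omZ hc h1 a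
              rw [map_mul, map_inv, hy', hw'] at h2
              exact hv₂₁ (inv_mul_eq_one.1 h2).symm
        have hsym : cHom hc w a = v₂ := by rw [cHom_symm hc a w, hw]
        have hv11 : v₁ * v₁ = 1 := omZ_sq hv₁V
        have hv22 : v₂ * v₂ = 1 := omZ_sq hv₂V
        rcases four_cases hV hv₁V hv₂V hv₁1 hv₂1 hv₂₁ hv11 (cHom hc w y) (cHom_mem hc w y)
          with hcase | hcase | hcase | hcase
        · exact hfinal y w ((cHom_eq_one_iff hc).1 hcase) hy hw
        · refine hfinal y (w * a) ((cHom_eq_one_iff hc).1 ?_) hy ?_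
          · rw [cHom_mul_right, hcase, hy, hv11]
          · rw [map_mul, hw, cHom_self, mul_one]
        · refine hfinal (y * a) w ((cHom_eq_one_iff hc).1 ?_) ?_ hw
          · rw [map_mul, hcase, hsym, hv22]
          · rw [map_mul, hy, cHom_self, mul_one]
        · refine hfinal (y * a) (w * a) ((cHom_eq_one_iff hc).1 ?_) ?_ ?_
          · rw [cHom_mul_right, map_mul, map_mul, hcase, hsym, hy, cHom_self, mul_one]
            have e : v₁ * v₂ * v₂ * v₁ = v₁ * (v₂ * v₂) * v₁ := by group
            rw [e, hv22, mul_one, hv11]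
          · rw [map_mul, hy, cHom_self, mul_one]
          · rw [map_mul, hw, cHom_self, mul_one]
    obtain ⟨y', w', hyw, hy'V, hw'H⟩ := pair
    -- (b) the abelian subgroup `U`
    have hmemK : ∀ g, g ∈ Cx hc y' ⊓ Cx hc w' ↔ g * y' = y' * g ∧ g * w' = w' * g := by
      intro g
      simp only [Subgroup.mem_inf, mem_Cx]
    have hVU : omZ X ≤ zK (Cx hc y' ⊓ Cx hc w') := by
      intro v hv
      refine mem_zK ?_ (fun k _ => omZ_comm hv k)
      exact (hmemK v).2 ⟨(omZ_comm hv y').symm, (omZ_comm hv w').symm⟩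
    have hyU : y' ∈ zK (Cx hc y' ⊓ Cx hc w') :=
      mem_zK ((hmemK y').2 ⟨rfl, hyw⟩) (fun k hk => ((hmemK k).1 hk).1)
    have hwU : w' ∈ zK (Cx hc y' ⊓ Cx hc w') :=
      mem_zK ((hmemK w').2 ⟨hyw.symm, rfl⟩) (fun k hk => ((hmemK k).1 hk).2)
    have hH₂U : (omZ X ⊔ Subgroup.zpowers y') ⊔ Subgroup.zpowers w' ≤
        zK (Cx hc y' ⊓ Cx hc w') :=
      sup_le (sup_le hVU (Subgroup.zpowers_le.2 hyU)) (Subgroup.zpowers_le.2 hwU)
    have hU16 : 16 ≤ Nat.card (zK (Cx hc y' ⊓ Cx hc w')) := by
      have h1 := card_sup_zpowers_ge (H := omZ X ⊔ Subgroup.zpowers y') hw'H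
      have h2 := (hH1 y' hy'V).1
      have h3 := Subgroup.card_le_of_le hH₂U
      omega
    generalize hUdef : zK (Cx hc y' ⊓ Cx hc w') = U at hVU hyU hwU hH₂U hU16
    have hUab : ∀ u ∈ U, ∀ u' ∈ U, u * u' = u' * u := by
      intro u hu u' hu'
      rw [← hUdef] at hu hu'
      exact zK_comm _ hu hu'
    have hUne : U ≠ ⊤ := by
      intro htop
      exact hab (hUab a (by rw [htop]; exact Subgroup.mem_top a) b
        (by rw [htop]; exact Subgroup.mem_top b))
    have hUcard : Nat.card U = 16 := by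
      have h1 := Subgroup.card_subgroup_dvd_card U
      rw [hk] at h1
      obtain ⟨j, hj, hj2⟩ := (Nat.dvd_prime_pow Nat.prime_two).1 h1
      have hlt : Nat.card U < 32 := by
        by_contra hcon
        exact hUne (Subgroup.eq_of_le_of_card_ge le_top (by
          rw [Subgroup.card_top, hk32]
          omega))
      rw [hj2] at hU16 hlt ⊢
      interval_cases j <;> simp_all
    have hUidx : U.index = 2 := by
      have h1 := Subgroup.card_mul_index U
      rw [hUcard, hk32] at h1
      omega
    -- (c) uniqueness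
    have huniq : ∀ P' : Subgroup X, (∀ p ∈ P', ∀ q ∈ P', p * q = q * p) → Nat.card P' = 16 →
        P' = U := by
      intro P' hP'ab hP'card
      by_contra hne
      have hnle : ¬ P' ≤ U := fun hle =>
        hne (Subgroup.eq_of_le_of_card_ge hle (by rw [hUcard, hP'card]))
      obtain ⟨p, hpP, hpU⟩ : ∃ p ∈ P', p ∉ U := by
        by_contra hcon
        exact hnle (fun g hg => by
          by_contra hgU
          exact hcon ⟨g, hg, hgU⟩)
      have hP'idx : P'.index = 2 := by
        have h1 := Subgroup.card_mul_index P'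
        rw [hP'card, hk32] at h1
        omega
      have h8 : 8 ≤ Nat.card ↥(U ⊓ P') := by
        have h1 := Subgroup.index_inf_le (H := U) (K := P')
        rw [hUidx, hP'idx] at h1
        have h2 := Subgroup.card_mul_index (U ⊓ P')
        rw [hk32] at h2
        by_contra hcon
        have h3 : Nat.card ↥(U ⊓ P') ≤ 7 := by omega
        have h4 : Nat.card ↥(U ⊓ P') * (U ⊓ P').index ≤ 7 * 4 := Nat.mul_le_mul h3 h1
        omega
      obtain ⟨u, huUP, huV⟩ := exists_mem_not_mem (K := U ⊓ P') (H := omZ X) (by omega)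
      have htop : U ⊔ P' = ⊤ := by
        apply Subgroup.eq_of_le_of_card_ge le_top
        rw [Subgroup.card_top, hk32]
        have h1 := two_mul_card_le_of_lt (le_sup_left : U ≤ U ⊔ P')
          ⟨p, Subgroup.mem_sup_right hpP, hpU⟩
        omega
      have hle : U ⊔ P' ≤ Cx hc u := by
        refine sup_le ?_ ?_
        · intro g hg
          exact (mem_Cx hc).2 (hUab g hg u huUP.1)
        · intro g hg
          exact (mem_Cx hc).2 (hP'ab g hg u huUP.2)
      rw [htop] at hle
      exact Cx_ne_top hc (notV_of u huV) (top_le_iff.1 hle)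
    -- (d) `U` is `A`-invariant of index 2
    refine h.hyp.no_index_two U ?_ hUidx
    intro ψ _ x hx
    have hmap : U.map ψ.toMonoidHom = U := by
      apply huniq
      · rintro _ ⟨p, hp, rfl⟩ _ ⟨q, hq, rfl⟩
        show ψ p * ψ q = ψ q * ψ p
        rw [← map_mul, ← map_mul, hUab p hp q hq]
      · rw [Subgroup.card_map_of_injective ψ.injective, hUcard]
    rw [← hmap]
    exact ⟨x, hx, rfl⟩

end Cfsg.Agent.Lib.Helper13.Scn
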